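import Mathlib
import Cfsg.Prelude.Def_Local
import Cfsg.Agent.Lib.Cores.PCore
import Cfsg.Agent.Lib.CoprimeAction.Sylow

/-!
If all products of two conjugates of an involution have `p`-power order and the involution is
central modulo a normal subgroup of odd order, then these products lie in `O_p(G)`.
-/

set_option autoImplicit false
set_option linter.style.haveILetI false

namespace CfsgLib.Plane4.InvolutionClass

open CfsgLib.CoprimeAction

theorem mul_mem_pCore {G : Type*} [Group G] [Finite G] {p : ℕ} (hp : p.Prime) (d : G)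
    (hd : d * d = 1) (N : Subgroup G) [N.Normal] (hN : Odd (Nat.card N))
    (hcen : ∀ g : G, d * g * d⁻¹ * g⁻¹ ∈ N)
    (hprod : ∀ a ∈ conjugatesOf d, ∀ b ∈ conjugatesOf d, ∃ k : ℕ, orderOf (a * b) = p ^ k) :
    ∀ a ∈ conjugatesOf d, ∀ b ∈ conjugatesOf d, a * b ∈ Cfsg.pCore p G := by
  classical
  haveI : Fact p.Prime := ⟨hp⟩
  have di : d⁻¹ = d := inv_eq_of_mul_eq_one_right hd
  -- inverted elements are products of two conjugates
  have inverted : ∀ x ∈ N, d * x * d⁻¹ = x⁻¹ →
      ∃ y ∈ N, y * d * y⁻¹ = x * d ∧ ∃ k : ℕ, orderOf x = p ^ k := by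
    intro x hx hdx
    obtain ⟨m, hm⟩ := Odd.of_dvd_nat hN (Subgroup.orderOf_dvd_natCard N hx)
    set y := x ^ (m + 1) with hy
    have hyy : y * y = x := by
      rw [hy, ← pow_add, show m + 1 + (m + 1) = 2 * m + 1 + 1 by ring, ← hm, pow_succ,
        pow_orderOf_eq_one, one_mul]
    have hdy : d * y⁻¹ = y * d := by
      have : d * y⁻¹ * d⁻¹ = y := by
        rw [hy, ← inv_pow, ← conj_pow, ← conj_inv, hdx, inv_inv]
      rw [← mul_inv_eq_iff_eq_mul]; exact this
    have hc : y * d * y⁻¹ = x * d := by rw [mul_assoc, hdy, ← mul_assoc, hyy]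
    refine ⟨y, pow_mem hx _, hc, ?_⟩
    obtain ⟨k, hk⟩ := hprod _ (isConj_iff.2 ⟨y, rfl⟩) d (mem_conjugatesOf_self)
    refine ⟨k, ?_⟩
    rw [← hk, hc, mul_assoc, hd, mul_one]
  set A : Subgroup G := Subgroup.zpowers d with hA
  have hAN : A ≤ Subgroup.normalizer (N : Set G) := by
    rw [Subgroup.normalizer_eq_top]; exact le_top
  have hcA : (Nat.card A).Coprime (Nat.card N) := by
    rw [hA, Nat.card_zpowers]
    exact Nat.Coprime.coprime_dvd_left (orderOf_dvd_of_pow_eq_one (by rw [pow_two, hd]))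
      (Nat.coprime_two_left.2 hN)
  have hsolv : Group.IsSolvable A ∨ Group.IsSolvable N := Or.inl (isSolvable_zpowers d)
  set C : Subgroup G := N ⊓ Subgroup.centralizer ({d} : Set G) with hC
  have hCN : C ≤ N := inf_le_left
  -- the centralizer has `p`-power index
  obtain ⟨a, ha⟩ : ∃ a : ℕ, (C.subgroupOf N).index = p ^ a := by
    refine ⟨_, Nat.eq_prime_pow_of_unique_prime_dvd Subgroup.index_ne_zero_of_finite ?_⟩
    intro q hq hqi
    by_contra hne
    haveI : Fact q.Prime := ⟨hq⟩
    obtain ⟨Q, hQ⟩ := exists_invariant_sylow hAN hcA hsolv q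
    refine Q.not_dvd_index (hqi.trans (Subgroup.index_dvd_of_le fun u hu => ?_))
    refine ⟨u.2, Subgroup.mem_centralizer_singleton_iff.2 ?_⟩
    show (u : G) * d = d * u
    set z : G := (u : G)⁻¹ * (d * u * d⁻¹) with hz
    have hu' : (u : G) ∈ (Q : Subgroup N).map N.subtype := ⟨u, hu, rfl⟩
    have hdu := (Subgroup.mem_normalizer_iff.1 (hQ (Subgroup.mem_zpowers d)) (u : G)).1 hu'
    have hzQ : z ∈ (Q : Subgroup N).map N.subtype := mul_mem (inv_mem hu') hdu
    have hzinv : d * z * d⁻¹ = z⁻¹ := by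
      rw [hz, mul_inv_rev, inv_inv]
      simp only [di, mul_assoc, mul_inv_rev, inv_inv]
      rw [hd, mul_one]
    obtain ⟨-, -, -, k, hk⟩ := inverted z (Subgroup.map_subtype_le _ hzQ) hzinv
    obtain ⟨j, hj⟩ := (Q.isPGroup'.map N.subtype) ⟨z, hzQ⟩
    have hj' : z ^ q ^ j = 1 := by simpa using congrArg Subtype.val hj
    have hz1 : z = 1 := by
      rw [← orderOf_eq_one_iff, hk]
      exact Nat.eq_one_of_dvd_coprimes
        (((Nat.coprime_primes hp hq).2 fun e => hne e.symm).pow k j) dvd_rfl
        (hk ▸ orderOf_dvd_of_pow_eq_one hj')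
    rw [hz, inv_mul_eq_one] at hz1
    conv_lhs => rw [hz1]
    rw [mul_assoc _ d⁻¹ d, inv_mul_cancel, mul_one]
  -- an invariant Sylow subgroup covering the cosets of the centralizer
  obtain ⟨R⟩ := (inferInstance : Nonempty (Sylow p C))
  have hRC : (R : Subgroup C).map C.subtype ≤ C := Subgroup.map_subtype_le _
  obtain ⟨P, hRP, hPA⟩ := exists_invariant_sylow_ge hAN hcA hsolv (hRC.trans hCN)
    (R.isPGroup'.map C.subtype) (by
      rw [hA, Subgroup.zpowers_le]
      refine mem_normalizer_of_conj_mem fun x hx => ?_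
      rw [← Subgroup.mem_centralizer_singleton_iff.1 (hRC hx).2]
      simpa [mul_assoc, di, hd] using hx)
  set P' : Subgroup G := (P : Subgroup N).map N.subtype with hP'
  have hP'N : P' ≤ N := Subgroup.map_subtype_le _
  have hP'p : IsPGroup p P' := P.isPGroup'.map _
  have cover : ∀ y ∈ N, ∃ π ∈ P', π⁻¹ * y ∈ C := by
    let φ := Subgroup.quotientSubgroupOfEmbeddingOfLE C hP'N
    have hcard : Nat.card (N ⧸ C.subgroupOf N) ≤ Nat.card (P' ⧸ C.subgroupOf P') := by
      obtain ⟨r, hr⟩ := IsPGroup.iff_card.1 R.isPGroup'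
      obtain ⟨s, hs⟩ := IsPGroup.iff_card.1 P.isPGroup'
      -- the intersection with the centralizer is no larger than `R`
      have hPC : Nat.card (C.subgroupOf P') ≤ p ^ r := by
        have hp' : IsPGroup p (P'.subgroupOf C) :=
          IsPGroup.comap_subtype hP'p
        have hle : (R : Subgroup C) ≤ P'.subgroupOf C := fun x hx =>
          hRP ⟨x, hx, rfl⟩
        have heq := R.is_maximal' hp' hle
        refine le_of_eq ?_
        rw [← hr, ← heq]
        exact Nat.card_congr
          { toFun := fun x => ⟨⟨x.1.1, x.2⟩, x.1.2⟩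
            invFun := fun x => ⟨⟨x.1.1, x.2⟩, x.1.2⟩
            left_inv := fun x => rfl
            right_inv := fun x => rfl }
      have hP's : Nat.card P' = p ^ s := by
        rw [hP', Nat.card_congr (Subgroup.equivMapOfInjective _ _ N.subtype_injective).symm.toEquiv,
          hs]
      have h1 := (C.subgroupOf N).card_mul_index
      rw [ha, Nat.card_congr (Subgroup.subgroupOfEquivOfLe hCN).toEquiv] at h1
      have h2 := (C.subgroupOf P').card_mul_index
      rw [hP's] at h2
      have hrs : r + a ≤ s := by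
        have e2 : s = (Nat.card N).factorization p := by
          have := P.card_eq_multiplicity
          rw [hs] at this
          exact Nat.pow_right_injective hp.two_le this
        have e1 : r = (Nat.card C).factorization p := by
          have := R.card_eq_multiplicity
          rw [hr] at this
          exact Nat.pow_right_injective hp.two_le this
        have e3 : p ^ (r + a) ∣ Nat.card N := by
          rw [← h1, pow_add]
          exact Nat.mul_dvd_mul_right (e1 ▸ Nat.ordProj_dvd _ _) _
        rw [e2]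
        exact (hp.pow_dvd_iff_le_factorization Nat.card_pos.ne').1 e3
      rw [← Subgroup.index_eq_card, ← Subgroup.index_eq_card, ha]
      have : p ^ r * p ^ a ≤ p ^ r * (C.subgroupOf P').index := by
        rw [← pow_add]
        calc p ^ (r + a) ≤ p ^ s := Nat.pow_le_pow_right hp.pos hrs
          _ ≤ p ^ r * (C.subgroupOf P').index := by
            rw [← h2]; exact Nat.mul_le_mul_right _ hPC
      exact Nat.le_of_mul_le_mul_left this (pow_pos hp.pos r)
    have hsurj : Function.Surjective φ := (φ.injective.bijective_of_nat_card_le hcard).2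
    intro y hy
    obtain ⟨q, hq⟩ := hsurj (QuotientGroup.mk ⟨y, hy⟩)
    induction q using QuotientGroup.induction_on with
    | H π =>
      refine ⟨π, π.2, ?_⟩
      have := QuotientGroup.eq.1 hq
      simpa [Subgroup.mem_subgroupOf] using this
  have mem : ∀ c ∈ conjugatesOf d, c * d ∈ P' := by
    intro c hc
    obtain ⟨g, rfl⟩ := isConj_iff.1 hc
    have hx : g * d * g⁻¹ * d ∈ N := by
      have := inv_mem (hcen g)
      rwa [mul_inv_rev, mul_inv_rev, mul_inv_rev, inv_inv, inv_inv, di, ← mul_assoc,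
        ← mul_assoc] at this
    have hinv : d * (g * d * g⁻¹ * d) * d⁻¹ = (g * d * g⁻¹ * d)⁻¹ := by
      rw [mul_inv_rev, mul_inv_rev, mul_inv_rev, inv_inv, di]
      simp [mul_assoc, di, hd]
    obtain ⟨y, hy, hyc, -⟩ := inverted _ hx hinv
    rw [mul_assoc (g * d * g⁻¹), hd, mul_one] at hyc
    obtain ⟨π, hπ, hπy⟩ := cover y hy
    have hcomm := Subgroup.mem_centralizer_singleton_iff.1 hπy.2
    have e : g * d * g⁻¹ = π * d * π⁻¹ := by
      rw [← hyc, show y = π * (π⁻¹ * y) by group, mul_assoc π _ d, hcomm]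
      group
    rw [e]
    have hdπ := (Subgroup.mem_normalizer_iff.1 (hPA (Subgroup.mem_zpowers d)) π⁻¹).1 (inv_mem hπ)
    have := mul_mem hπ hdπ
    simpa [mul_assoc, di] using this
  set S : Set G := (fun c => c * d) '' conjugatesOf d
  have hMP : Subgroup.closure S ≤ P' := by
    rw [Subgroup.closure_le]
    rintro _ ⟨c, hc, rfl⟩
    exact mem c hc
  haveI hMn : (Subgroup.closure S).Normal := by
    refine ⟨fun x hx g => ?_⟩
    induction hx using Subgroup.closure_induction with
    | mem x hx =>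
      obtain ⟨c, hc, rfl⟩ := hx
      have h1 : g * c * g⁻¹ * d ∈ Subgroup.closure S :=
        Subgroup.subset_closure ⟨_, hc.trans (isConj_iff.2 ⟨g, rfl⟩), rfl⟩
      have h2 : g * d * g⁻¹ * d ∈ Subgroup.closure S :=
        Subgroup.subset_closure ⟨_, isConj_iff.2 ⟨g, rfl⟩, rfl⟩
      have := mul_mem h1 (inv_mem h2)
      have dd : ∀ z : G, d * (d * z) = z := fun z => by rw [← mul_assoc, hd, one_mul]
      simpa [mul_assoc, di, hd, dd] using this
    | one => simpa using one_mem (Subgroup.closure S)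
    | mul x y _ _ hx hy =>
      rw [show g * (x * y) * g⁻¹ = g * x * g⁻¹ * (g * y * g⁻¹) by group]
      exact mul_mem hx hy
    | inv x _ hx =>
      rw [show g * x⁻¹ * g⁻¹ = (g * x * g⁻¹)⁻¹ by group]
      exact inv_mem hx
  intro x hx y hy
  have hle := CfsgLib.Cores.le_pCore (hP'p.to_le hMP)
  have h1 := hle (Subgroup.subset_closure ⟨x, hx, rfl⟩ : x * d ∈ Subgroup.closure S)
  have h2 := hle (Subgroup.subset_closure ⟨y, hy, rfl⟩ : y * d ∈ Subgroup.closure S)
  have hyi : y⁻¹ = y := by
    obtain ⟨g, rfl⟩ := isConj_iff.1 hy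
    simp [mul_assoc, di]
  have := mul_mem h1 (inv_mem h2)
  rwa [mul_inv_rev, ← mul_assoc, mul_assoc x d d⁻¹, mul_inv_cancel, mul_one, hyi] at this

end CfsgLib.Plane4.InvolutionClass
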