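import Mathlib

/-!
Ree's inequality for the orbit numbers of three permutations with product one, in the form needed
for groups with one fixed point and one further orbit.
-/

set_option autoImplicit false

namespace CfsgLib.Plane4.ReeInequality

variable {X : Type*} [Fintype X] [DecidableEq X]

set_option linter.unusedSectionVars false

/-- The number of orbits of the cyclic group generated by a permutation. -/
noncomputable def numOrbits (g : Equiv.Perm X) : ℕ :=
  Nat.card (Quotient (Equiv.Perm.SameCycle.setoid g))

/-- An orbit has at most `p` points. -/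
theorem orbit_bound (g : Equiv.Perm X) {p : ℕ} (hp : p.Prime) (hg : g ^ p = 1) :
    Fintype.card X + (p - 1) * (Finset.univ.filter fun a => g a = a).card ≤ p * numOrbits g := by
  classical
  set S := Equiv.Perm.SameCycle.setoid g
  set F := Finset.univ.filter fun a => g a = a
  set N := Finset.univ.filter fun a => ¬ g a = a
  let mk : X → Quotient S := Quotient.mk S
  have hfib : ∀ q ∈ N.image mk, (N.filter fun a => mk a = q).card ≤ p := by
    intro q hq
    obtain ⟨a, -, rfl⟩ := Finset.mem_image.1 hq
    refine le_trans (Finset.card_le_card (t := (Finset.range p).image fun i => (g ^ i) a) ?_)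
      (Finset.card_image_le.trans (by simp))
    intro b hb
    rw [Finset.mem_filter] at hb
    obtain ⟨i, hi⟩ : Equiv.Perm.SameCycle g a b := (Quotient.exact hb.2 : S.r b a).symm
    refine Finset.mem_image.2 ⟨(i % p).toNat, Finset.mem_range.2 ?_, ?_⟩
    · have := Int.emod_lt_of_pos i (by exact_mod_cast hp.pos : (0 : ℤ) < p)
      have := Int.emod_nonneg i (by exact_mod_cast hp.pos.ne' : (p : ℤ) ≠ 0)
      omega
    · rw [← zpow_natCast, Int.toNat_of_nonneg (Int.emod_nonneg i (by exact_mod_cast hp.pos.ne'))]
      rw [← Int.emod_add_mul_ediv i p, zpow_add, zpow_mul, zpow_natCast, hg, one_zpow, mul_one] at hi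
      exact hi
  have hN := Finset.card_le_mul_card_image N p hfib
  have hFN : F.card + N.card = Fintype.card X := by
    rw [Finset.card_filter_add_card_filter_not, Finset.card_univ]
  have hdis : Disjoint (F.image mk) (N.image mk) := by
    rw [Finset.disjoint_left]
    intro q hqF hqN
    obtain ⟨a, ha, rfl⟩ := Finset.mem_image.1 hqF
    obtain ⟨b, hb, e⟩ := Finset.mem_image.1 hqN
    obtain ⟨i, hi⟩ : Equiv.Perm.SameCycle g a b := (Quotient.exact e : S.r b a).symm
    simp only [F, N, Finset.mem_filter, Finset.mem_univ, true_and] at ha hb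
    rw [Equiv.Perm.zpow_apply_eq_self_of_apply_eq_self ha] at hi
    exact hb (hi ▸ ha)
  have hinj : (F.image mk).card = F.card := by
    refine Finset.card_image_of_injOn fun a ha b _ e => ?_
    obtain ⟨i, hi⟩ : Equiv.Perm.SameCycle g a b := Quotient.exact e
    simp only [F, Finset.coe_filter, Finset.mem_univ, true_and, Set.mem_ofPred_eq] at ha
    rwa [Equiv.Perm.zpow_apply_eq_self_of_apply_eq_self ha] at hi
  have htot : (F.image mk).card + (N.image mk).card ≤ numOrbits g := by
    rw [← Finset.card_union_of_disjoint hdis, numOrbits, Nat.card_eq_fintype_card]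
    exact Finset.card_le_univ _
  have hp1 : 1 ≤ p := hp.one_lt.le
  obtain ⟨m, rfl⟩ : ∃ m, p = m + 1 := ⟨p - 1, by omega⟩
  rw [hinj] at htot
  rw [Nat.add_sub_cancel]
  nlinarith

theorem dvd_card_sub_fixed (g : Equiv.Perm X) {p : ℕ} (hp : p.Prime) (hg : g ^ p = 1) :
    p ∣ Fintype.card X - (Finset.univ.filter fun a => g a = a).card := by
  haveI : Fact p.Prime := ⟨hp⟩
  have h := Equiv.Perm.card_compl_support_modEq (σ := g) (p := p) (n := 1) (by rwa [pow_one])
  have e : g.supportᶜ = Finset.univ.filter fun a => g a = a := by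
    ext a; simp
  rw [e] at h
  exact (Nat.modEq_iff_dvd' (Finset.card_le_univ _)).1 h

/-- The permutation operator on functions. -/
noncomputable def pull (g : Equiv.Perm X) : (X → ℚ) →ₗ[ℚ] (X → ℚ) := LinearMap.funLeft ℚ ℚ g

/-- The difference operator. -/
noncomputable def diff (g : Equiv.Perm X) : (X → ℚ) →ₗ[ℚ] (X → ℚ) := LinearMap.id - pull g

theorem diff_apply (g : Equiv.Perm X) (f : X → ℚ) (a : X) : diff g f a = f a - f (g a) := rfl

theorem finrank_range_diff (g : Equiv.Perm X) :
    Module.finrank ℚ (LinearMap.range (diff g)) + numOrbits g ≤ Fintype.card X := by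
  classical
  have h := (diff g).finrank_range_add_finrank_ker
  rw [Module.finrank_fintype_fun_eq_card] at h
  suffices numOrbits g ≤ Module.finrank ℚ (LinearMap.ker (diff g)) by omega
  let L : (Quotient (Equiv.Perm.SameCycle.setoid g) → ℚ) →ₗ[ℚ] LinearMap.ker (diff g) :=
    (LinearMap.funLeft ℚ ℚ (Quotient.mk (Equiv.Perm.SameCycle.setoid g))).codRestrict _ fun f => by
      rw [LinearMap.mem_ker]
      funext a
      rw [diff_apply, LinearMap.funLeft_apply, LinearMap.funLeft_apply,
        Quotient.sound (s := Equiv.Perm.SameCycle.setoid g) (show Equiv.Perm.SameCycle g a (g a) from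
          ⟨1, by simp⟩), sub_self]
      rfl
  have hL : Function.Injective L := fun f f' e => by
    funext q
    induction q using Quotient.inductionOn with
    | h a => exact congrFun (congrArg Subtype.val e) a
  have := LinearMap.finrank_le_finrank_of_injective hL
  rwa [Module.finrank_fintype_fun_eq_card, ← Nat.card_eq_fintype_card] at this

/-- Ree's inequality for a group fixing or moving `o` and transitive away from it. -/
theorem bound (x y z : Equiv.Perm X) (o b : X) (hxyz : x * y * z = 1)
    (htr : ∀ a, a ≠ o → ∃ g ∈ Subgroup.closure ({x, y} : Set (Equiv.Perm X)), g b = a) :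
    numOrbits x + numOrbits y + numOrbits z ≤ Fintype.card X + 4 := by
  classical
  set n := Fintype.card X
  let Sx := LinearMap.range (diff x)
  let Sy := LinearMap.range (diff y)
  let Sz := LinearMap.range (diff z)
  let ψ : (X → ℚ) →ₗ[ℚ] Sx × Sy × Sz :=
    (diff x).rangeRestrict.prod ((diff y).rangeRestrict.prod (diff z).rangeRestrict)
  let φ : Sx × Sy × Sz →ₗ[ℚ] (X → ℚ) :=
    (((pull z).comp (pull y)).comp Sx.subtype).coprod (((pull z).comp Sy.subtype).coprod Sz.subtype)
  have hφψ : LinearMap.range ψ ≤ LinearMap.ker φ := by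
    rintro _ ⟨f, rfl⟩
    rw [LinearMap.mem_ker]
    funext a
    show pull z (pull y (diff x f)) a + (pull z (diff y f) a + diff z f a) = 0
    show (f (y (z a)) - f (x (y (z a)))) + ((f (z a) - f (y (z a))) + (f a - f (z a))) = 0
    have : x (y (z a)) = a := by
      rw [← Equiv.Perm.mul_apply, ← Equiv.Perm.mul_apply, hxyz, Equiv.Perm.one_apply]
    rw [this]; ring
  set R := LinearMap.range φ
  have hpull : ∀ (g : Equiv.Perm X) (f : X → ℚ), pull g f + diff g f = f := fun g f => by
    show pull g f + (f - pull g f) = f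
    abel
  have hz : ∀ v ∈ Sz, v ∈ R := fun v hv => ⟨(0, 0, ⟨v, hv⟩), by simp [φ]⟩
  have hy : ∀ v ∈ Sy, v ∈ R := fun v hv => by
    rw [← hpull z v]
    exact add_mem ⟨(0, ⟨v, hv⟩, 0), by simp [φ]⟩ (hz _ ⟨v, rfl⟩)
  have hx : ∀ v ∈ Sx, v ∈ R := fun v hv => by
    rw [← hpull y v]
    refine add_mem ?_ (hy _ ⟨v, rfl⟩)
    rw [← hpull z (pull y v)]
    exact add_mem ⟨(⟨v, hv⟩, 0, 0), by simp [φ]⟩ (hz _ ⟨pull y v, rfl⟩)
  have hcl : ∀ g ∈ Subgroup.closure ({x, y} : Set (Equiv.Perm X)), ∀ a,
      Pi.single (g a) (1 : ℚ) - Pi.single a 1 ∈ R := by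
    intro g hg
    induction hg using Subgroup.closure_induction with
    | mem g hg =>
      intro a
      have e : diff g (Pi.single (g a) 1) = Pi.single (g a) (1 : ℚ) - Pi.single a 1 := by
        funext c
        simp [diff_apply, Pi.single_apply, g.injective.eq_iff]
      rw [← e]
      rcases hg with hg | hg <;> rw [hg]
      · exact hx _ ⟨_, rfl⟩
      · exact hy _ ⟨_, rfl⟩
    | one => intro a; simp
    | mul g h _ _ hg hh =>
      intro a
      have := add_mem (hg (h a)) (hh a)
      rwa [sub_add_sub_cancel] at this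
    | inv g _ hg =>
      intro a
      have := neg_mem (hg (g⁻¹ a))
      rwa [neg_sub, Equiv.Perm.inv_def, g.apply_symm_apply] at this
  have hR : n ≤ Module.finrank ℚ R + 2 := by
    let T : R × (ℚ × ℚ) →ₗ[ℚ] (X → ℚ) := R.subtype.coprod
      ((LinearMap.toSpanSingleton ℚ _ (Pi.single o 1)).coprod
        (LinearMap.toSpanSingleton ℚ _ (Pi.single b 1)))
    have hT : Function.Surjective T := by
      rw [← LinearMap.range_eq_top, eq_top_iff, ← (Pi.basisFun ℚ X).span_eq, Submodule.span_le]
      rintro _ ⟨a, rfl⟩
      rw [Pi.basisFun_apply, SetLike.mem_coe]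
      by_cases ha : a = o
      · exact ⟨(0, (1, 0)), by simp [T, ha]⟩
      · obtain ⟨g, hg, rfl⟩ := htr a ha
        exact ⟨(⟨_, hcl g hg b⟩, (0, 1)), by simp [T]⟩
    have := LinearMap.finrank_le_finrank_of_injective (f := T.dualMap)
      (LinearMap.dualMap_injective_of_surjective hT)
    rw [Subspace.dual_finrank_eq, Subspace.dual_finrank_eq, Module.finrank_fintype_fun_eq_card,
      Module.finrank_prod, Module.finrank_prod, Module.finrank_self] at this
    exact this
  have hker : Module.finrank ℚ (LinearMap.ker ψ) ≤ 2 := by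
    let E : LinearMap.ker ψ →ₗ[ℚ] ℚ × ℚ :=
      ((LinearMap.proj o).comp (LinearMap.ker ψ).subtype).prod
        ((LinearMap.proj b).comp (LinearMap.ker ψ).subtype)
    have hE : Function.Injective E := by
      rw [← LinearMap.ker_eq_bot, LinearMap.ker_eq_bot']
      rintro ⟨f, hf⟩ h
      have h0 : f o = 0 ∧ f b = 0 := Prod.ext_iff.1 h
      have h1 := LinearMap.mem_ker.1 hf
      have hinv : ∀ g ∈ Subgroup.closure ({x, y} : Set (Equiv.Perm X)), ∀ a, f (g a) = f a := by
        intro g hg
        induction hg using Subgroup.closure_induction with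
        | mem g hg =>
          intro a
          rcases hg with hg | hg <;> rw [hg]
          · have := congrFun (congrArg (fun t => ((t.1 : Sx) : X → ℚ)) h1) a
            exact (sub_eq_zero.1 this).symm
          · have := congrFun (congrArg (fun t => ((t.2.1 : Sy) : X → ℚ)) h1) a
            exact (sub_eq_zero.1 this).symm
        | one => intro a; rfl
        | mul g h _ _ hg hh => intro a; exact (hg (h a)).trans (hh a)
        | inv g _ hg =>
          intro a
          rw [← hg (g⁻¹ a), Equiv.Perm.inv_def, g.apply_symm_apply]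
      refine Subtype.ext (funext fun a => ?_)
      by_cases ha : a = o
      · rw [ha]; exact h0.1
      · obtain ⟨g, hg, rfl⟩ := htr a ha
        exact (hinv g hg b).trans h0.2
    have := LinearMap.finrank_le_finrank_of_injective hE
    simpa using this
  have h1 : Module.finrank ℚ R + Module.finrank ℚ (LinearMap.ker φ) = Module.finrank ℚ (Sx × Sy × Sz) :=
    φ.finrank_range_add_finrank_ker
  rw [Module.finrank_prod, Module.finrank_prod] at h1
  have h2 := ψ.finrank_range_add_finrank_ker
  rw [Module.finrank_fintype_fun_eq_card] at h2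
  have h3 := Submodule.finrank_mono hφψ
  have : Module.finrank ℚ Sx + numOrbits x ≤ n := finrank_range_diff x
  have : Module.finrank ℚ Sy + numOrbits y ≤ n := finrank_range_diff y
  have : Module.finrank ℚ Sz + numOrbits z ≤ n := finrank_range_diff z
  omega

end CfsgLib.Plane4.ReeInequality
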